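import Mathlib
import Cfsg.Agent.Lib.Helper93.SOd

set_option autoImplicit false

/-!
# Reduction of an order to finitely many local configurations

A variant of `Cfsg.Agent.Lib.Helper93.SO.noSimple_prime_sylow`: for a prime `p` dividing `n`
exactly once, a non-abelian simple group of order `n` has a Sylow `p`-subgroup `P` with
`([N(P) : C(P)], |C(P)|)` in a given list `L`, as soon as the rules of
`Cfsg.Agent.Lib.Helper93.SO.rOK` exclude every other possibility.
-/

namespace Cfsg.Agent.Lib.Helper91.SO2

open Cfsg.Agent.Lib.Helper17 Cfsg.Agent.Lib.Helper93.SO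

universe u

/-- the check for one candidate `d` for the number of Sylow `p`-subgroups; the pairs
`(r, c) = ([N(P) : C(P)], |C(P)|)` of the list `L` are admitted -/
def dOK2 (n p d : ℕ) (L : List (ℕ × ℕ)) : Bool :=
  decide (d = 1) || !decide (2 * n ∣ d.factorial) ||
  (decide (d = p + 1) && !decide (2 * (n / d) ∣ p * (p - 1))) ||
  (List.range p).all (fun r => !(decide (r ∣ p - 1) && decide (r ≠ 1) && decide (r ∣ n / d) &&
    decide (p ∣ n / d / r)) || rOK n p d r || L.contains (r, n / d / r))

theorem noSimple_of_cases (n p q m : ℕ) (hp : p.Prime) (hq : q.Prime) (hqp : q ≠ p)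
    (hqn : q ∣ n) (hp2 : p ≠ 2) (hn : n = p * m) (hm : ¬ p ∣ m) (L : List (ℕ × ℕ))
    (hall : ∀ d ∈ sylowCands p m, dOK2 n p d L = true)
    (hcase : ∀ rc ∈ L, ∀ (G : Type u) [Group G] [Finite G] [IsSimpleGroup G],
      Nat.card G = n → ∀ P : Sylow p G, Nat.card (P : Subgroup G) = p →
      (Subgroup.centralizer ((P : Subgroup G) : Set G)).relIndex
        (Subgroup.normalizer ((P : Subgroup G) : Set G)) = rc.1 →
      Nat.card (Subgroup.centralizer ((P : Subgroup G) : Set G)) = rc.2 → False) :
    NoSimple.{u} n := by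
  intro G _ _ _ hG hcard
  have : Fact p.Prime := ⟨hp⟩
  obtain ⟨hGn, P, d, r, hP, hd, hdc, hd1, hfac, hdN, hr, hr1, hrp, hrC, hPC⟩ :=
    sylow_prime_data (G := G) p m q hq hqp (hcard.trans hn) hm (by rw [hcard]; exact hqn)
  rw [hcard] at hfac hdN
  have hok := hall d hdc
  have hnpos : 0 < n := hcard ▸ Nat.card_pos
  have hdpos : 0 < d := by
    rcases Nat.eq_zero_or_pos d with h | h
    · rw [h, zero_mul] at hdN; omega
    · exact h
  obtain ⟨N, hN⟩ : ∃ N, N = Nat.card (Subgroup.normalizer ((P : Subgroup G) : Set G)) := ⟨_, rfl⟩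
  obtain ⟨C, hC⟩ : ∃ C, C = Nat.card (Subgroup.centralizer ((P : Subgroup G) : Set G)) := ⟨_, rfl⟩
  have hdN' : d * N = n := by rw [hN]; exact hdN
  have hrC' : r * C = N := by rw [hN, hC]; exact hrC
  have hNd : n / d = N := by rw [← hdN']; exact Nat.mul_div_cancel_left N hdpos
  have hNpos : 0 < N := by
    rcases Nat.eq_zero_or_pos N with h | h
    · rw [h, mul_zero] at hdN'; omega
    · exact h
  have hrpos : 0 < r := by
    rcases Nat.eq_zero_or_pos r with h | h
    · rw [h, zero_mul] at hrC'; omega
    · exact h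
  have hCr : n / d / r = C := by rw [hNd, ← hrC']; exact Nat.mul_div_cancel_left C hrpos
  have hpC : p ∣ C := by
    have := Subgroup.card_dvd_of_le hPC
    rwa [hP, ← hC] at this
  simp only [dOK2, Bool.or_eq_true, Bool.and_eq_true, decide_eq_true_eq, Bool.not_eq_true',
    decide_eq_false_iff_not, List.all_eq_true, List.mem_range] at hok
  rcases hok with ((h | h) | ⟨h1, h2⟩) | h
  · exact hd1 h
  · exact h hfac
  · have hA := two_mul_card_normalizer_dvd_of_card_sylow_succ hGn p hp2 (by rw [hd, h1])
      (by rw [hcard, hn]; exact dvd_mul_right p m) P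
    rw [← hN, ← hNd] at hA
    exact h2 hA
  · have hrlt : r < p := by
      have h1 : 0 < p - 1 := by have := hp.two_le; omega
      have := Nat.le_of_dvd h1 hrp
      omega
    rcases h r hrlt with (h | h) | h
    · simp only [Bool.and_eq_false_iff, decide_eq_false_iff_not] at h
      rcases h with ((h | h) | h) | h
      · exact h hrp
      · exact h hr1
      · apply h
        rw [hNd]
        exact Dvd.intro _ hrC'
      · apply h
        rw [hCr]
        exact hpC
    · exact false_of_rOK hG hGn n p d r hp2 hcard P hP hd hd1 hdN hr hrC h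
    · have hmem : (r, n / d / r) ∈ L := by simpa using h
      rw [hCr] at hmem
      exact hcase (r, C) hmem G hcard P hP hr hC.symm

end Cfsg.Agent.Lib.Helper91.SO2
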