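import Mathlib
import Cfsg.Agent.Lib.Helper91.SSFive2

set_option autoImplicit false

/-!
# Eigenvalue multiplicities of elements of `C(P)`

Let `P` be a subgroup of prime order `p` of a simple group `G`, let `c` be an element of prime
order `q ≠ p` centralizing `P`, and let `χ` be a nonlinear irreducible character whose value at
an element with `p`-part `y ∈ P \ {1}` only depends on `y`. Then every eigenvalue `≠ 1` of `c`
in a representation affording `χ` has multiplicity divisible by `p`, and the total multiplicity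
of these eigenvalues is at least `2 * p`.
-/

namespace Cfsg.Agent.Lib.Helper91.SS

open Cfsg

/-- the sum of the powers of a root of unity -/
theorem geom_sum_root (β : ℂ) (n : ℕ) (hβ : β ^ n = 1) :
    ∑ l ∈ Finset.range n, β ^ l = if β = 1 then (n : ℂ) else 0 := by
  by_cases h : β = 1
  · rw [if_pos h, h]
    simp
  · rw [if_neg h]
    have h1 := mul_geom_sum β n
    rw [hβ, sub_self] at h1
    rcases mul_eq_zero.mp h1 with h2 | h2
    · exact absurd (sub_eq_zero.mp h2) h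
    · exact h2

/-- **Multiplicities of roots of unity.** If the power sums `X j = ∑ i, ν i ^ j` of `pq`-th roots
of unity satisfy `X (p l + q k) = V k` for all `l` whenever `p ∤ k`, then for every `q`-th root
of unity `μ ≠ 1` the number of `i` with `ν i ^ p = μ` is divisible by `p`. -/
theorem dvd_card_filter_pow_eq {ι : Type} [Fintype ι] [DecidableEq ι] (ν : ι → ℂ) (p q : ℕ)
    (hp : 0 < p) (hν : ∀ i, ν i ^ (p * q) = 1) (V : ℕ → ℂ)
    (hV : ∀ k, ¬ p ∣ k → ∀ l, ∑ i, ν i ^ (p * l + q * k) = V k)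
    (μ : ℂ) (hμq : μ ^ q = 1) (hμ1 : μ ≠ 1) (hq : 0 < q) :
    p ∣ (Finset.univ.filter (fun i => ν i ^ p = μ)).card := by
  classical
  have hμ0 : μ ≠ 0 := by
    rintro rfl
    rw [zero_pow hq.ne'] at hμq
    exact zero_ne_one hμq
  have hξq : μ⁻¹ ^ q = 1 := by rw [inv_pow, hμq, inv_one]
  have hξ1 : μ⁻¹ ≠ 1 := by
    intro h
    apply hμ1
    rw [← inv_inv μ, h, inv_one]
  have hξsum : ∑ l ∈ Finset.range q, μ⁻¹ ^ l = 0 := by
    rw [geom_sum_root _ q hξq, if_neg hξ1]
  -- the indicator of `ν i ^ p = μ`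
  have hind : ∀ i, ∑ l ∈ Finset.range q, (ν i ^ p * μ⁻¹) ^ l =
      if ν i ^ p = μ then (q : ℂ) else 0 := by
    intro i
    have h1 : (ν i ^ p * μ⁻¹) ^ q = 1 := by
      rw [mul_pow, ← pow_mul, hν i, hξq, one_mul]
    rw [geom_sum_root _ q h1]
    have h2 : ν i ^ p * μ⁻¹ = 1 ↔ ν i ^ p = μ := by
      constructor
      · intro h
        have := congrArg (fun z => z * μ) h
        simpa [mul_assoc, inv_mul_cancel₀ hμ0] using this
      · intro h
        rw [h, mul_inv_cancel₀ hμ0]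
    simp only [h2]
  -- the sums `F k` vanish for `p ∤ k`
  have hF : ∀ k, ¬ p ∣ k →
      ∑ i ∈ Finset.univ.filter (fun i => ν i ^ p = μ), ν i ^ (q * k) = 0 := by
    intro k hk
    have h1 : (q : ℂ) * ∑ i ∈ Finset.univ.filter (fun i => ν i ^ p = μ), ν i ^ (q * k) =
        ∑ i, (∑ l ∈ Finset.range q, (ν i ^ p * μ⁻¹) ^ l) * ν i ^ (q * k) := by
      rw [Finset.sum_filter, Finset.mul_sum]
      refine Finset.sum_congr rfl (fun i _ => ?_)
      rw [hind i]
      split_ifs <;> ring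
    have h2 : ∑ i, (∑ l ∈ Finset.range q, (ν i ^ p * μ⁻¹) ^ l) * ν i ^ (q * k) =
        ∑ l ∈ Finset.range q, μ⁻¹ ^ l * ∑ i, ν i ^ (p * l + q * k) := by
      simp_rw [Finset.sum_mul, Finset.mul_sum]
      rw [Finset.sum_comm]
      refine Finset.sum_congr rfl (fun l _ => Finset.sum_congr rfl (fun i _ => ?_))
      rw [mul_pow, pow_add, ← pow_mul]
      ring
    have h3 : ∑ l ∈ Finset.range q, μ⁻¹ ^ l * ∑ i, ν i ^ (p * l + q * k) = 0 := by
      rw [Finset.sum_congr rfl (fun l _ => by rw [hV k hk l]), ← Finset.sum_mul, hξsum, zero_mul]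
    have h4 : (q : ℂ) * ∑ i ∈ Finset.univ.filter (fun i => ν i ^ p = μ), ν i ^ (q * k) = 0 := by
      rw [h1, h2, h3]
    rcases mul_eq_zero.mp h4 with h | h
    · exact absurd (by exact_mod_cast h : q = 0) hq.ne'
    · exact h
  -- double counting
  have hcount : ∑ k ∈ Finset.range p,
      ∑ i ∈ Finset.univ.filter (fun i => ν i ^ p = μ), ν i ^ (q * k) =
      ((Finset.univ.filter (fun i => ν i ^ p = μ)).card : ℂ) := by
    obtain ⟨p', rfl⟩ : ∃ p', p = p' + 1 := ⟨p - 1, by omega⟩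
    rw [Finset.sum_range_succ']
    have h0 : ∀ k ∈ Finset.range p',
        ∑ i ∈ Finset.univ.filter (fun i => ν i ^ (p' + 1) = μ), ν i ^ (q * (k + 1)) = 0 := by
      intro k hk
      rw [Finset.mem_range] at hk
      apply hF
      intro hdvd
      have := Nat.le_of_dvd (by omega) hdvd
      omega
    rw [Finset.sum_congr rfl h0]
    simp
  have hcount2 : ∑ k ∈ Finset.range p,
      ∑ i ∈ Finset.univ.filter (fun i => ν i ^ p = μ), ν i ^ (q * k) =
      (p : ℂ) * (((Finset.univ.filter (fun i => ν i ^ p = μ)).filter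
        (fun i => ν i ^ q = 1)).card : ℂ) := by
    rw [Finset.sum_comm]
    have h1 : ∀ i, ∑ k ∈ Finset.range p, ν i ^ (q * k) =
        if ν i ^ q = 1 then (p : ℂ) else 0 := by
      intro i
      have h2 : (ν i ^ q) ^ p = 1 := by rw [← pow_mul, mul_comm, hν i]
      rw [← geom_sum_root _ p h2]
      refine Finset.sum_congr rfl (fun k _ => ?_)
      rw [pow_mul]
    rw [Finset.sum_congr rfl (fun i _ => h1 i), Finset.sum_ite, Finset.sum_const,
      Finset.sum_const_zero, add_zero, nsmul_eq_mul, mul_comm]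
  rw [hcount] at hcount2
  have hnat : (Finset.univ.filter (fun i => ν i ^ p = μ)).card =
      p * ((Finset.univ.filter (fun i => ν i ^ p = μ)).filter (fun i => ν i ^ q = 1)).card := by
    exact_mod_cast hcount2
  exact Dvd.intro _ hnat.symm

/-- the total multiplicity of the eigenvalues `≠ 1` of `w ^ p`, given the divisibility of the
individual multiplicities and the triviality of the determinant, is `p * T` with `T ≠ 1` -/
theorem card_filter_pow_ne_one {ι : Type} [Fintype ι] [DecidableEq ι] (ν : ι → ℂ) (p q : ℕ)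
    (hp : 0 < p) (hpq : Nat.Coprime p q) (hν : ∀ i, ν i ^ (p * q) = 1)
    (hdvd : ∀ μ : ℂ, μ ^ q = 1 → μ ≠ 1 → p ∣ (Finset.univ.filter (fun i => ν i ^ p = μ)).card)
    (hdet : ∏ i, ν i = 1) :
    ∃ T : ℕ, (Finset.univ.filter (fun i => ν i ^ p ≠ 1)).card = p * T ∧ T ≠ 1 := by
  classical
  have hαq : ∀ i, (ν i ^ p) ^ q = 1 := fun i => by rw [← pow_mul, hν i]
  have hdvdA : p ∣ (Finset.univ.filter (fun i => ν i ^ p ≠ 1)).card := by
    rw [Finset.card_eq_sum_card_fiberwise (f := fun i => ν i ^ p)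
      (t := (Finset.univ.filter (fun i => ν i ^ p ≠ 1)).image (fun i => ν i ^ p))
      (fun i hi => Finset.mem_image_of_mem _ hi)]
    apply Finset.dvd_sum
    intro μ hμ
    rw [Finset.mem_image] at hμ
    obtain ⟨i₀, hi₀, rfl⟩ := hμ
    rw [Finset.mem_filter] at hi₀
    have h1 : (Finset.univ.filter (fun i => ν i ^ p ≠ 1)).filter
        (fun i => ν i ^ p = ν i₀ ^ p) = Finset.univ.filter (fun i => ν i ^ p = ν i₀ ^ p) := by
      ext i
      simp only [Finset.mem_filter, Finset.mem_univ, true_and]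
      constructor
      · exact fun h => h.2
      · intro h
        exact ⟨by rw [h]; exact hi₀.2, h⟩
    rw [h1]
    exact hdvd _ (hαq i₀) hi₀.2
  obtain ⟨T, hT⟩ := hdvdA
  refine ⟨T, hT, ?_⟩
  rintro rfl
  rw [mul_one] at hT
  -- pick an index in `A`
  have hne : (Finset.univ.filter (fun i => ν i ^ p ≠ 1)).Nonempty := by
    rw [← Finset.card_pos, hT]
    exact hp
  obtain ⟨i₀, hi₀⟩ := hne
  rw [Finset.mem_filter] at hi₀
  have hsub : Finset.univ.filter (fun i => ν i ^ p = ν i₀ ^ p) ⊆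
      Finset.univ.filter (fun i => ν i ^ p ≠ 1) := by
    intro i hi
    rw [Finset.mem_filter] at hi ⊢
    exact ⟨hi.1, by rw [hi.2]; exact hi₀.2⟩
  have hcard : p ≤ (Finset.univ.filter (fun i => ν i ^ p = ν i₀ ^ p)).card := by
    apply Nat.le_of_dvd
    · rw [Finset.card_pos]
      exact ⟨i₀, Finset.mem_filter.mpr ⟨Finset.mem_univ _, rfl⟩⟩
    · exact hdvd _ (hαq i₀) hi₀.2
  have heq : Finset.univ.filter (fun i => ν i ^ p = ν i₀ ^ p) =
      Finset.univ.filter (fun i => ν i ^ p ≠ 1) :=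
    Finset.eq_of_subset_of_card_le hsub (by rw [hT]; exact hcard)
  -- the determinant of `w ^ p`
  have hprod : ∏ i, ν i ^ p = (ν i₀ ^ p) ^ p := by
    have h1 : ∀ i, ν i ^ p = if ν i ^ p ≠ 1 then ν i₀ ^ p else 1 := by
      intro i
      by_cases h : ν i ^ p ≠ 1
      · rw [if_pos h]
        have : i ∈ Finset.univ.filter (fun i => ν i ^ p = ν i₀ ^ p) := by
          rw [heq]
          exact Finset.mem_filter.mpr ⟨Finset.mem_univ _, h⟩
        exact (Finset.mem_filter.mp this).2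
      · rw [if_neg h]
        exact not_not.mp h
    rw [Finset.prod_congr rfl (fun i _ => h1 i), Finset.prod_ite, Finset.prod_const_one, mul_one,
      Finset.prod_const, hT]
  rw [Finset.prod_pow, hdet, one_pow] at hprod
  -- `ν i₀ ^ p` is a `p`-th and a `q`-th root of unity
  have h1 : orderOf (ν i₀ ^ p) ∣ p := orderOf_dvd_of_pow_eq_one hprod.symm
  have h2 : orderOf (ν i₀ ^ p) ∣ q := orderOf_dvd_of_pow_eq_one (hαq i₀)
  have h3 : orderOf (ν i₀ ^ p) = 1 := Nat.eq_one_of_dvd_coprimes hpq h1 h2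
  exact hi₀.2 (orderOf_eq_one_iff.mp h3)

variable {G : Type*} [Group G] [Finite G]

/-- the eigenvalues of an element in a representation affording an irreducible character of a
simple group -/
theorem exists_eigenvalues [IsSimpleGroup G] (hGn : ¬ (Nat.card G).Prime) (χ : IrrCharacter G)
    (w : G) :
    ∃ (ι : Type) (_ : Fintype ι) (ν : ι → ℂ), (∀ i, ν i ^ orderOf w = 1) ∧
      (∀ j : ℕ, (χ : G → ℂ) (w ^ j) = ∑ i, ν i ^ j) ∧ (∏ i, ν i = 1) := by
  classical
  obtain ⟨n, ρ, hirr, hρ⟩ := χ.2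
  obtain ⟨ι, hι, v, μ, hv, hμ, -⟩ := Cfsg.Agent.Lib.Helper80.exists_eigenbasis ρ w
  refine ⟨ι, hι, μ, hμ, ?_, ?_⟩
  · intro j
    have hpw : ∀ i, ρ (w ^ j) (v i) = (μ i ^ j) • v i := by
      intro i
      induction j with
      | zero => simp
      | succ j ih =>
        rw [pow_succ, map_mul, Module.End.mul_apply, hv i, map_smul, ih, smul_smul, pow_succ,
          mul_comm]
    rw [← hρ]
    exact Cfsg.Agent.Lib.Helper80.trace_eq_sum_of_eigenbasis (ρ (w ^ j)) v (fun i => μ i ^ j) hpw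
  · have hdet : LinearMap.det (ρ w) = ∏ i, μ i := by
      rw [← LinearMap.det_toMatrix v]
      have : LinearMap.toMatrix v v (ρ w) = Matrix.diagonal μ := by
        ext i j
        rw [LinearMap.toMatrix_apply, hv j, map_smul, Finsupp.smul_apply, Module.Basis.repr_self,
          Matrix.diagonal_apply]
        by_cases h : i = j
        · subst h; simp
        · simp [h]
      rw [this, Matrix.det_diagonal]
    rw [← hdet]
    exact det_rep_eq_one hGn ρ w

/-- **Rule K1.** The degree of a nonlinear irreducible character `χ` of a simple group whose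
value at `z` only depends on the `p`-part of `z` when this `p`-part lies in `P \ {1}`, in the
presence of an element `c` of prime order `q ≠ p` centralizing `P`: the eigenvalue `1` of `c ^ p`
has multiplicity `N₁`, the other eigenvalues have total multiplicity `p * T` with `T ≥ 2`, and
`q * N₁` is the sum of `χ` over the group generated by `c ^ p`. -/
theorem k1_general [IsSimpleGroup G] (hGn : ¬ (Nat.card G).Prime) (p : ℕ) [Fact p.Prime]
    (P : Subgroup G) (hP : Nat.card P = p) (χ : IrrCharacter G) (hχ1 : (χ : G → ℂ) 1 ≠ 1)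
    (hval : ∀ z y : G, IsPPart p z y → y ∈ P → y ≠ 1 → (χ : G → ℂ) z = (χ : G → ℂ) y)
    (c : G) (hc : c ∈ Subgroup.centralizer (P : Set G)) (q : ℕ) (hq : q.Prime) (hqp : q ≠ p)
    (hcq : orderOf c = q) :
    ∃ N₁ T : ℕ, 2 ≤ T ∧ Cfsg.charDegree (χ : G → ℂ) = N₁ + p * T ∧
      ∑ j ∈ Finset.range q, (χ : G → ℂ) ((c ^ p) ^ j) = (q : ℂ) * (N₁ : ℂ) := by
  classical
  have hpp : p.Prime := Fact.out
  obtain ⟨x₀, hx₀P, hx₀1⟩ : ∃ x₀ : G, x₀ ∈ P ∧ x₀ ≠ 1 := by
    have hne : P ≠ ⊥ := by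
      intro h
      have h1 : Nat.card P = 1 := by rw [h]; exact Subgroup.card_bot
      rw [hP] at h1
      exact hpp.one_lt.ne' h1
    obtain ⟨w, hw⟩ := Subgroup.ne_bot_iff_exists_ne_one.mp hne
    exact ⟨(w : G), w.2, fun h => hw (Subtype.ext h)⟩
  have hox : orderOf x₀ = p :=
    Cfsg.Agent.Lib.Helper17.orderOf_eq_of_mem_of_card_prime hpp P hP x₀ hx₀P hx₀1
  have hcomm : Commute x₀ c := Subgroup.mem_centralizer_iff.mp hc x₀ hx₀P
  have hcop : Nat.Coprime p q := (Nat.coprime_primes hpp hq).mpr (Ne.symm hqp)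
  obtain ⟨w, hw⟩ : ∃ w : G, w = x₀ * c := ⟨_, rfl⟩
  have how : orderOf w = p * q := by
    rw [hw, hcomm.orderOf_mul_eq_mul_orderOf_of_coprime (by rw [hox, hcq]; exact hcop), hox, hcq]
  have hwpow : ∀ i : ℕ, w ^ i = x₀ ^ i * c ^ i := fun i => by rw [hw]; exact hcomm.mul_pow i
  have hxp : x₀ ^ p = 1 := by rw [← hox]; exact pow_orderOf_eq_one x₀
  have hcqq : c ^ q = 1 := by rw [← hcq]; exact pow_orderOf_eq_one c
  obtain ⟨ι, hι, ν, hν, hX, hdet⟩ := exists_eigenvalues hGn χ w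
  rw [how] at hν
  -- the values at `w ^ (p l + q k)` for `p ∤ k`
  have hV : ∀ k, ¬ p ∣ k → ∀ l, ∑ i, ν i ^ (p * l + q * k) = (χ : G → ℂ) (x₀ ^ (q * k)) := by
    intro k hk l
    rw [← hX]
    have hx : x₀ ^ (p * l + q * k) = x₀ ^ (q * k) := by
      rw [pow_add, pow_mul, hxp, one_pow, one_mul]
    have hne1 : x₀ ^ (q * k) ≠ 1 := by
      intro h
      have h1 : p ∣ q * k := by rw [← hox]; exact orderOf_dvd_of_pow_eq_one h
      rcases (Nat.Prime.dvd_mul hpp).mp h1 with h2 | h2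
      · exact hqp ((Nat.prime_dvd_prime_iff_eq hpp hq).mp h2).symm
      · exact hk h2
    apply hval (w ^ (p * l + q * k)) (x₀ ^ (q * k))
    · refine ⟨c ^ (p * l + q * k), ?_, ?_, ⟨1, ?_⟩, ?_⟩
      · rw [hwpow, hx]
      · exact (hcomm.pow_pow (q * k) (p * l + q * k))
      · rw [pow_one]
        exact Cfsg.Agent.Lib.Helper17.orderOf_eq_of_mem_of_card_prime hpp P hP _
          (pow_mem hx₀P _) hne1
      · intro hdvd
        have h1 : orderOf (c ^ (p * l + q * k)) ∣ q := hcq ▸ orderOf_pow_dvd _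
        have h2 : p ∣ q := hdvd.trans h1
        exact hqp ((Nat.prime_dvd_prime_iff_eq hpp hq).mp h2).symm
    · exact pow_mem hx₀P _
    · exact hne1
  have hdvd : ∀ μ : ℂ, μ ^ q = 1 → μ ≠ 1 →
      p ∣ (Finset.univ.filter (fun i => ν i ^ p = μ)).card := fun μ hμq hμ1 =>
    dvd_card_filter_pow_eq ν p q hpp.pos hν _ hV μ hμq hμ1 hq.pos
  obtain ⟨T, hT, hT1⟩ := card_filter_pow_ne_one ν p q hpp.pos hcop hν hdvd hdet
  -- the degree
  obtain ⟨hxd, -, -⟩ := Cfsg.Agent.Lib.Helper79.irr_charDegree χ.2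
  have hdeg : Cfsg.charDegree (χ : G → ℂ) = Fintype.card ι := by
    have h1 := hX 0
    rw [pow_zero, hxd] at h1
    simp only [pow_zero, Finset.sum_const, Finset.card_univ, nsmul_eq_mul, mul_one] at h1
    exact_mod_cast h1
  have hsplit : Fintype.card ι = (Finset.univ.filter (fun i => ν i ^ p = 1)).card +
      (Finset.univ.filter (fun i => ν i ^ p ≠ 1)).card := by
    rw [← Finset.card_univ]
    exact (Finset.card_filter_add_card_filter_not (s := Finset.univ) (fun i => ν i ^ p = 1)).symm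
  -- the sum over the powers of `c ^ p`
  have hsum : ∑ j ∈ Finset.range q, (χ : G → ℂ) ((c ^ p) ^ j) =
      (q : ℂ) * ((Finset.univ.filter (fun i => ν i ^ p = 1)).card : ℂ) := by
    have h1 : ∀ j, (χ : G → ℂ) ((c ^ p) ^ j) = ∑ i, (ν i ^ p) ^ j := by
      intro j
      have h2 : (c ^ p) ^ j = w ^ (p * j) := by
        rw [hwpow, pow_mul x₀, hxp, one_pow, one_mul, pow_mul]
      rw [h2, hX]
      refine Finset.sum_congr rfl (fun i _ => ?_)
      rw [pow_mul]
    rw [Finset.sum_congr rfl (fun j _ => h1 j), Finset.sum_comm]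
    have h3 : ∀ i, ∑ j ∈ Finset.range q, (ν i ^ p) ^ j =
        if ν i ^ p = 1 then (q : ℂ) else 0 := fun i =>
      geom_sum_root _ q (by rw [← pow_mul, hν i])
    rw [Finset.sum_congr rfl (fun i _ => h3 i), Finset.sum_ite, Finset.sum_const,
      Finset.sum_const_zero, add_zero, nsmul_eq_mul, mul_comm]
  refine ⟨(Finset.univ.filter (fun i => ν i ^ p = 1)).card, T, ?_, ?_, hsum⟩
  · -- `T ≠ 0` since `c ^ p` acts nontrivially
    rcases Nat.lt_or_ge T 2 with h | h
    · exfalso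
      have hT0 : T = 0 := by omega
      rw [hT0, mul_zero, Finset.card_eq_zero, Finset.filter_eq_empty_iff] at hT
      have hall : ∀ i, ν i ^ p = 1 := fun i => not_not.mp (hT (Finset.mem_univ i))
      have h1 : (χ : G → ℂ) (c ^ p) = (χ : G → ℂ) 1 := by
        have h2 : c ^ p = w ^ p := by rw [hwpow, hxp, one_mul]
        rw [h2, hX, Finset.sum_congr rfl (fun i _ => hall i)]
        have h3 := hX 0
        rw [pow_zero] at h3
        rw [h3]
        simp
      have h4 := eq_one_of_char_eq χ hχ1 (c ^ p) h1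
      have h5 : q ∣ p := by rw [← hcq]; exact orderOf_dvd_of_pow_eq_one h4
      exact hqp ((Nat.prime_dvd_prime_iff_eq hq hpp).mp h5)
    · exact h
  · rw [hdeg, hsplit, hT]

/-- **Rule K1 for an exceptional character**: its degree is at least `2 * p`. -/
theorem k1_exc [IsSimpleGroup G] (hGn : ¬ (Nat.card G).Prime) (p : ℕ) [Fact p.Prime]
    (P : Subgroup G) (hP : Nat.card P = p) (η : IrrCharacter G) (hη1 : (η : G → ℂ) 1 ≠ 1)
    (hval : ∀ z y : G, IsPPart p z y → y ∈ P → y ≠ 1 → (η : G → ℂ) z = (η : G → ℂ) y)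
    (c : G) (hc : c ∈ Subgroup.centralizer (P : Set G)) (q : ℕ) (hq : q.Prime) (hqp : q ≠ p)
    (hcq : orderOf c = q) : 2 * p ≤ Cfsg.charDegree (η : G → ℂ) := by
  obtain ⟨N₁, T, hT, hdeg, -⟩ := k1_general hGn p P hP η hη1 hval c hc q hq hqp hcq
  rw [hdeg]
  nlinarith

/-- **Rule K1 for a non-exceptional character** taking the constant value `a` on the elements
with `p`-part in `P \ {1}`: `f + (p - 1) a = p (n + T)` with `T ≥ 2` and `(p - 1) a ≤ p n`. -/
theorem k1_const [IsSimpleGroup G] (hGn : ¬ (Nat.card G).Prime) (p : ℕ) [Fact p.Prime]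
    (P : Subgroup G) (hP : Nat.card P = p) (χ : IrrCharacter G) (hχ1 : (χ : G → ℂ) 1 ≠ 1) (a : ℤ)
    (hval : ∀ z y : G, IsPPart p z y → y ∈ P → y ≠ 1 → (χ : G → ℂ) z = (a : ℂ))
    (c : G) (hc : c ∈ Subgroup.centralizer (P : Set G)) (q : ℕ) (hq : q.Prime) (hqp : q ≠ p)
    (hcq : orderOf c = q) :
    ∃ n T : ℕ, 2 ≤ T ∧ ((p : ℤ) - 1) * a ≤ (p : ℤ) * (n : ℤ) ∧
      (Cfsg.charDegree (χ : G → ℂ) : ℤ) + ((p : ℤ) - 1) * a = (p : ℤ) * ((n : ℤ) + (T : ℤ)) := by
  have hpp : p.Prime := Fact.out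
  have hval' : ∀ z y : G, IsPPart p z y → y ∈ P → y ≠ 1 → (χ : G → ℂ) z = (χ : G → ℂ) y := by
    intro z y hzy hy hy1
    rw [hval z y hzy hy hy1, hval y y (isPPart_self hpp P hP y hy hy1) hy hy1]
  obtain ⟨N₁, T, hT, hdeg, hsum⟩ := k1_general hGn p P hP χ hχ1 hval' c hc q hq hqp hcq
  obtain ⟨n, hn⟩ := sum_pow_centralizer χ.2 p P hP (a : ℂ) hval c hc q hq hqp hcq
  rw [hsum] at hn
  have hq0 : (q : ℂ) ≠ 0 := by exact_mod_cast hq.ne_zero
  have h1 : (N₁ : ℂ) = (p : ℂ) * (n : ℂ) - ((p : ℂ) - 1) * a := mul_left_cancel₀ hq0 hn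
  have h2 : (N₁ : ℤ) = (p : ℤ) * (n : ℤ) - ((p : ℤ) - 1) * a := by exact_mod_cast h1
  refine ⟨n, T, hT, ?_, ?_⟩
  · have : (0 : ℤ) ≤ (N₁ : ℤ) := Int.natCast_nonneg _
    linarith
  · rw [hdeg]
    push_cast
    linarith

end Cfsg.Agent.Lib.Helper91.SS
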