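import Mathlib
import Cfsg.Agent.Lib.Helper91.SO2Wrap
import Cfsg.Agent.Lib.Helper91.SSK1
import Cfsg.Agent.Lib.Helper91.SSTop
import Cfsg.Agent.Lib.Helper91.SSBrauer

set_option autoImplicit false

/-!
# No simple group of order `4212`

`4212 = 2² · 3⁴ · 13`. The Sylow counting leaves `[N(P) : C(P)] = 4`, `|C(P)| = 39` and
`[N(P) : C(P)] = 12`, `|C(P)| = 13` for a Sylow `13`-subgroup `P`; both are excluded by the
degree equation of the principal `13`-block.
-/

namespace Cfsg.Agent.Lib.Helper91.Ord4212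

open Cfsg Cfsg.Agent.Lib.Helper17 Cfsg.Agent.Lib.Helper93.SO Cfsg.Agent.Lib.Helper91.SO2
  Cfsg.Agent.Lib.Helper91.SS

universe u

/-- the divisors of `4212` with square at most `4212` in given residue classes modulo `13` -/
theorem list_4212 (f : ℕ) (hf : f ∣ 4212) (hsq : f ^ 2 ≤ 4212) :
    (f % 13 = 1 → f = 1 ∨ f = 27) ∧ (f % 13 = 12 → f = 12) ∧ (f % 13 = 2 → f = 2 ∨ f = 54) ∧
    (f % 13 = 11 → False) ∧ (f % 13 = 3 → f = 3) ∧ (f % 13 = 10 → f = 36) := by
  have hf' : f ∈ Nat.divisors 4212 := Nat.mem_divisors.mpr ⟨hf, by norm_num⟩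
  have key : ∀ f ∈ Nat.divisors 4212, f ^ 2 ≤ 4212 →
      (f % 13 = 1 → f = 1 ∨ f = 27) ∧ (f % 13 = 12 → f = 12) ∧ (f % 13 = 2 → f = 2 ∨ f = 54) ∧
      (f % 13 = 11 → False) ∧ (f % 13 = 3 → f = 3) ∧ (f % 13 = 10 → f = 36) := by
    decide +kernel
  exact key f hf' hsq

/-- The case `[N(P) : C(P)] = 4`, `|C(P)| = 39`. -/
theorem case_4_39 {G : Type u} [Group G] [Finite G] [IsSimpleGroup G] (hG : Nat.card G = 4212)
    (P : Sylow 13 G) (hP : Nat.card (P : Subgroup G) = 13)
    (hr : (Subgroup.centralizer ((P : Subgroup G) : Set G)).relIndex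
      (Subgroup.normalizer ((P : Subgroup G) : Set G)) = 4)
    (hC : Nat.card (Subgroup.centralizer ((P : Subgroup G) : Set G)) = 39) : False := by
  have : Fact (Nat.Prime 13) := ⟨by norm_num⟩
  have hGn : ¬ (Nat.card G).Prime := by rw [hG]; norm_num
  obtain ⟨k, χ, a, η, d, δ, hk, hδ, hχ, hη1, hηval, hsq, hrel, -, -⟩ :=
    brauer_chars hGn 13 P hP 4 (by norm_num) hr
  -- an element of order `3` of `C(P)`
  obtain ⟨c', hc'⟩ := exists_prime_orderOf_dvd_card'
    (G := Subgroup.centralizer ((P : Subgroup G) : Set G)) 3 (by rw [hC]; norm_num)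
  obtain ⟨c, hcdef⟩ : ∃ c : G, c = (c' : G) := ⟨_, rfl⟩
  have hcC : c ∈ Subgroup.centralizer ((P : Subgroup G) : Set G) := by rw [hcdef]; exact c'.2
  have hco : orderOf c = 3 := by rw [hcdef, Subgroup.orderOf_coe]; exact hc'
  have h31 : ((13 - 1) / 4 : ℕ) = 3 := by norm_num
  rw [h31] at hsq hrel
  -- the `a i` are `±1`
  have hnn : (0 : ℤ) ≤ (d - δ) ^ 2 := sq_nonneg _
  have hdd : (0 : ℤ) ≤ d ^ 2 := sq_nonneg _
  have hpos : 1 ≤ (d - δ) ^ 2 + 2 * d ^ 2 := by
    rcases hδ with rfl | rfl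
    · rcases lt_trichotomy d 0 with h | h | h
      · nlinarith
      · rw [h]; norm_num
      · nlinarith
    · rcases lt_trichotomy d 0 with h | h | h
      · nlinarith
      · rw [h]; norm_num
      · nlinarith
  have hsum3 : ∑ i, a i ^ 2 ≤ 3 := by
    push_cast at hsq
    linarith
  have ha1 : ∀ i, a i = 1 ∨ a i = -1 := by
    intro i
    have h1 : a i ^ 2 ≤ ∑ j, a j ^ 2 :=
      Finset.single_le_sum (f := fun j => a j ^ 2) (fun j _ => sq_nonneg (a j)) (Finset.mem_univ i)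
    have h2 : a i ^ 2 ≤ 3 := h1.trans hsum3
    have h3 : a i ≠ 0 := (hχ i).1
    have h4 : -2 < a i := by nlinarith
    have h5 : a i < 2 := by nlinarith
    omega
  -- the degrees of the `χ i`
  have hdeg : ∀ i, a i = 1 ∧ (χ i : G → ℂ) 1 = 27 := by
    intro i
    obtain ⟨ha0, hx1, hxa⟩ := hχ i
    obtain ⟨hxd, hxpos, hxdvd⟩ := Cfsg.Agent.Lib.Helper79.irr_charDegree (χ i).2
    obtain ⟨n, T, hT, hle, heq⟩ := k1_const hGn 13 (P : Subgroup G) hP (χ i) hx1 (a i) hxa c hcC 3
      (by norm_num) (by norm_num) hco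
    have hsqf := Cfsg.Agent.Lib.Helper80.charDegree_sq_le_card (χ i).2
    rw [hG] at hxdvd hsqf
    obtain ⟨l1, l2, -, -, -, -⟩ := list_4212 _ hxdvd hsqf
    push_cast at hle heq
    rcases ha1 i with h | h
    · rw [h] at hle heq
      have hmod : Cfsg.charDegree (χ i : G → ℂ) % 13 = 1 := by omega
      rcases l1 hmod with h27 | h27
      · omega
      · refine ⟨h, ?_⟩
        rw [hxd, h27]
        norm_num
    · rw [h] at hle heq
      have hmod : Cfsg.charDegree (χ i : G → ℂ) % 13 = 12 := by omega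
      have := l2 hmod
      omega
  -- the relation at `1`
  obtain ⟨hyd, hypos, hydvd⟩ := Cfsg.Agent.Lib.Helper79.irr_charDegree η.2
  rw [hG] at hydvd
  have h1 := hrel 1 (by rw [orderOf_one]; norm_num)
  rw [hyd, Finset.sum_congr rfl (fun i _ => by rw [(hdeg i).1, (hdeg i).2])] at h1
  simp only [Finset.sum_const, Finset.card_univ, Fintype.card_fin, nsmul_eq_mul] at h1
  have h2 : ((3 : ℤ) * d - δ) * (Cfsg.charDegree (η : G → ℂ) : ℤ) + 1 + (k : ℤ) * 27 = 0 := by
    have h3 : ((((3 : ℤ) * d - δ) * (Cfsg.charDegree (η : G → ℂ) : ℤ) + 1 + (k : ℤ) * 27 : ℤ) : ℂ)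
        = 0 := by
      push_cast
      linear_combination h1
    exact_mod_cast h3
  have hsumk : ∑ i, a i ^ 2 = (k : ℤ) := by
    rw [Finset.sum_congr rfl (fun i _ => by rw [(hdeg i).1])]
    simp
  rw [hsumk] at hsq
  push_cast at hsq
  obtain ⟨f0, hf0⟩ : ∃ f0, f0 = Cfsg.charDegree (η : G → ℂ) := ⟨_, rfl⟩
  rw [← hf0] at h2 hydvd
  have hd1 : -2 < d := by nlinarith
  have hd2 : d < 2 := by nlinarith
  have hf0' : f0 ∈ Nat.divisors 4212 := Nat.mem_divisors.mpr ⟨hydvd, by norm_num⟩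
  have key : ∀ f ∈ Nat.divisors 4212, f ≠ 82 := by decide +kernel
  have h82 := key f0 hf0'
  rcases hδ with rfl | rfl
  · interval_cases d <;> omega
  · interval_cases d <;> omega

/-- the arithmetic of the case `[N(P) : C(P)] = 12`: the number `j` of characters with
`(f, a) = (12, -1)`, `l` with `(27, 1)`, `m` with `(36, -3)`, `s` with `(54, 2)` -/
theorem arith_12_13 (j l m s : ℕ) (h1 : 1 + (j + l + 9 * m + 4 * s : ℤ) = 13)
    (h2 : 1 + (-(12 * j : ℤ) + 27 * l - 108 * m + 108 * s) = 0) : False := by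
  omega

/-- The case `[N(P) : C(P)] = 12`, `|C(P)| = 13`. -/
theorem case_12_13 {G : Type u} [Group G] [Finite G] [IsSimpleGroup G] (hG : Nat.card G = 4212)
    (P : Sylow 13 G) (hP : Nat.card (P : Subgroup G) = 13)
    (hr : (Subgroup.centralizer ((P : Subgroup G) : Set G)).relIndex
      (Subgroup.normalizer ((P : Subgroup G) : Set G)) = 12) : False := by
  classical
  have : Fact (Nat.Prime 13) := ⟨by norm_num⟩
  have h13 : Nat.Prime 13 := by norm_num
  have hGn : ¬ (Nat.card G).Prime := by rw [hG]; norm_num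
  obtain ⟨k, χ, a, hinj, hχ, hsq, hrel, -⟩ := brauer_top hGn 13 P hP (by rw [hr])
  push_cast at hsq
  -- the pairs `(f, a)`
  have hpair : ∀ i, (a i = -1 ∧ (χ i : G → ℂ) 1 = 12) ∨ (a i = 1 ∧ (χ i : G → ℂ) 1 = 27) ∨
      (a i = -3 ∧ (χ i : G → ℂ) 1 = 36) ∨ (a i = 2 ∧ (χ i : G → ℂ) 1 = 54) := by
    intro i
    obtain ⟨ha0, hx1, hxa⟩ := hχ i
    obtain ⟨hxd, hxpos, hxdvd⟩ := Cfsg.Agent.Lib.Helper79.irr_charDegree (χ i).2
    have hsqf := Cfsg.Agent.Lib.Helper80.charDegree_sq_le_card (χ i).2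
    rw [hG] at hxdvd hsqf
    have hmod := Cfsg.Agent.Lib.Helper90.BrauerDeg.degree_modEq (χ i).2 13 (P : Subgroup G) hP (a i)
      (fun y hy hy1 => hxa y y (isPPart_self h13 _ hP y hy hy1) hy hy1)
    have hmod' : ((Cfsg.charDegree (χ i : G → ℂ) : ℕ) : ℤ) % 13 = a i % 13 := by
      have := hmod
      unfold Int.ModEq at this
      exact_mod_cast this
    have h1 : a i ^ 2 ≤ ∑ j, a j ^ 2 :=
      Finset.single_le_sum (f := fun j => a j ^ 2) (fun j _ => sq_nonneg (a j)) (Finset.mem_univ i)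
    have h2 : a i ^ 2 ≤ 12 := by linarith
    have h4 : -4 < a i := by nlinarith
    have h5 : a i < 4 := by nlinarith
    obtain ⟨l1, l2, l3, l4, l5, l6⟩ := list_4212 _ hxdvd hsqf
    -- rule A: the degree is not `a i`
    have hA : (Cfsg.charDegree (χ i : G → ℂ) : ℤ) ≠ a i := by
      intro hfa
      obtain ⟨y, hyP, hy1⟩ : ∃ y : G, y ∈ (P : Subgroup G) ∧ y ≠ 1 := by
        have hne : (P : Subgroup G) ≠ ⊥ := by
          intro h
          have h1 : Nat.card (P : Subgroup G) = 1 := by rw [h]; exact Subgroup.card_bot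
          rw [hP] at h1
          norm_num at h1
        obtain ⟨w, hw⟩ := Subgroup.ne_bot_iff_exists_ne_one.mp hne
        exact ⟨(w : G), w.2, fun h => hw (Subtype.ext h)⟩
      apply hy1
      apply eq_one_of_char_eq (χ i) hx1 y
      rw [hxa y y (isPPart_self h13 _ hP y hyP hy1) hyP hy1, hxd, ← hfa]
      norm_cast
    have hf1 : Cfsg.charDegree (χ i : G → ℂ) ≠ 1 := by
      intro h
      apply hx1
      rw [hxd, h]
      norm_num
    have hval : ∀ v : ℕ, Cfsg.charDegree (χ i : G → ℂ) = v → (χ i : G → ℂ) 1 = (v : ℂ) := by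
      intro v hv
      rw [hxd, hv]
    interval_cases hai : a i
    · -- a = -3
      have := l6 (by omega)
      exact Or.inr (Or.inr (Or.inl ⟨rfl, by rw [hval 36 this]; norm_num⟩))
    · -- a = -2
      exact absurd (l4 (by omega)) id
    · -- a = -1
      have := l2 (by omega)
      exact Or.inl ⟨rfl, by rw [hval 12 this]; norm_num⟩
    · exact absurd rfl ha0
    · -- a = 1
      rcases l1 (by omega) with h | h
      · exact absurd h hf1
      · exact Or.inr (Or.inl ⟨rfl, by rw [hval 27 h]; norm_num⟩)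
    · -- a = 2
      rcases l3 (by omega) with h | h
      · exfalso; apply hA; rw [h]; norm_num
      · exact Or.inr (Or.inr (Or.inr ⟨rfl, by rw [hval 54 h]; norm_num⟩))
    · -- a = 3
      have := l5 (by omega)
      exfalso; apply hA; rw [this]; norm_num
  -- count the four kinds
  have h1 := hrel 1 (by rw [orderOf_one]; norm_num)
  obtain ⟨j, hj⟩ : ∃ j, j = (Finset.univ.filter (fun i => a i = -1)).card := ⟨_, rfl⟩
  obtain ⟨l, hl⟩ : ∃ l, l = (Finset.univ.filter (fun i => a i = 1)).card := ⟨_, rfl⟩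
  obtain ⟨m, hm⟩ : ∃ m, m = (Finset.univ.filter (fun i => a i = -3)).card := ⟨_, rfl⟩
  obtain ⟨s, hs⟩ : ∃ s, s = (Finset.univ.filter (fun i => a i = 2)).card := ⟨_, rfl⟩
  have hsq' : ∑ i, a i ^ 2 = (j + l + 9 * m + 4 * s : ℤ) := by
    have h : ∀ i, a i ^ 2 = (if a i = -1 then (1 : ℤ) else 0) + (if a i = 1 then (1 : ℤ) else 0) +
        9 * (if a i = -3 then (1 : ℤ) else 0) + 4 * (if a i = 2 then (1 : ℤ) else 0) := by
      intro i
      rcases hpair i with h | h | h | h <;> rw [h.1] <;> norm_num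
    rw [Finset.sum_congr rfl (fun i _ => h i)]
    simp only [Finset.sum_add_distrib, ← Finset.mul_sum, Finset.sum_boole]
    rw [hj, hl, hm, hs]
  have hrel' : ∑ i, (a i : ℂ) * (χ i : G → ℂ) 1 =
      ((-(12 * j : ℤ) + 27 * l - 108 * m + 108 * s : ℤ) : ℂ) := by
    have h : ∀ i, (a i : ℂ) * (χ i : G → ℂ) 1 =
        ((-12 * (if a i = -1 then (1 : ℤ) else 0) + 27 * (if a i = 1 then (1 : ℤ) else 0) -
        108 * (if a i = -3 then (1 : ℤ) else 0) + 108 * (if a i = 2 then (1 : ℤ) else 0) : ℤ) : ℂ) := by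
      intro i
      rcases hpair i with h | h | h | h <;> rw [h.1, h.2] <;> norm_num
    rw [Finset.sum_congr rfl (fun i _ => h i), ← Int.cast_sum]
    congr 1
    simp only [Finset.sum_add_distrib, Finset.sum_sub_distrib, ← Finset.mul_sum, Finset.sum_boole]
    rw [hj, hl, hm, hs]
    ring
  rw [hrel'] at h1
  have h2 : 1 + (-(12 * j : ℤ) + 27 * l - 108 * m + 108 * s) = 0 := by
    have h3 : ((1 + (-(12 * j : ℤ) + 27 * l - 108 * m + 108 * s) : ℤ) : ℂ) = 0 := by
      push_cast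
      push_cast at h1
      linear_combination h1
    exact_mod_cast h3
  rw [hsq'] at hsq
  exact arith_12_13 j l m s hsq h2

/-- **No simple group has order `4212`.** -/
theorem noSimple_4212 : NoSimple.{u} 4212 :=
  noSimple_of_cases 4212 13 2 324 (by norm_num) (by norm_num) (by norm_num) (by norm_num)
    (by norm_num) (by norm_num) (by norm_num) [(4, 39), (12, 13)] (by decide +kernel) (by
      intro rc hrc G _ _ _ hG P hP hr hC
      simp only [List.mem_cons, List.not_mem_nil, or_false] at hrc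
      rcases hrc with rfl | rfl
      · exact case_4_39 hG P hP hr hC
      · exact case_12_13 hG P hP hr)

end Cfsg.Agent.Lib.Helper91.Ord4212
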