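import Mathlib
import Cfsg.Agent.Lib.Helper93.SOd

set_option autoImplicit false

/-!
# Exceptional orders between `3641` and `6232`

The orders in this range which are not excluded by the rules of
`Cfsg.Agent.Lib.Helper93.SO.validB`.
-/

namespace Cfsg.Agent.Lib.Helper91.SO2

/-- the orders between `3641` and `6232` which need a separate treatment -/
def excB2 (n : ℕ) : Bool :=
  decide (n = 3780) || decide (n = 3960) || decide (n = 4032) || decide (n = 4080) || decide (n = 4200) || decide (n = 4212) || decide (n = 4320) || decide (n = 4536) || decide (n = 4620) || decide (n = 4680) || decide (n = 4800) || decide (n = 4960) || decide (n = 5040) || decide (n = 5148) || decide (n = 5376) || decide (n = 5400) || decide (n = 5460) || decide (n = 5472) || decide (n = 5616) || decide (n = 5760) || decide (n = 5880) || decide (n = 5940) || decide (n = 6048) || decide (n = 6072)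

end Cfsg.Agent.Lib.Helper91.SO2
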