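import Mathlib
import Cfsg.Agent.Lib.Helper91.SO2c0
import Cfsg.Agent.Lib.Helper91.SO2c1
import Cfsg.Agent.Lib.Helper91.SO2c2
import Cfsg.Agent.Lib.Helper91.SO2c3
import Cfsg.Agent.Lib.Helper91.SO2c4
import Cfsg.Agent.Lib.Helper91.SO2c5
import Cfsg.Agent.Lib.Helper91.SO2c6
import Cfsg.Agent.Lib.Helper91.SO2c7

set_option autoImplicit false

/-!
# The orders between `3641` and `6232`

Apart from `24` exceptional orders, no order in this range is the order of a non-abelian simple
group.
-/

namespace Cfsg.Agent.Lib.Helper91.SO2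

open Cfsg.Agent.Lib.Helper93.SO

universe u

theorem sweepAll (n : ℕ) (h1 : 3641 ≤ n) (h2 : n ≤ 6232) (hex : excB2 n = false) :
    NoSimple.{u} n := by
  rcases Nat.lt_or_ge n 3965 with h | h
  · exact sweep0 n h1 (by omega) hex
  rcases Nat.lt_or_ge n 4289 with h' | h'
  · exact sweep1 n h (by omega) hex
  rcases Nat.lt_or_ge n 4613 with h'' | h''
  · exact sweep2 n h' (by omega) hex
  rcases Nat.lt_or_ge n 4937 with h3 | h3
  · exact sweep3 n h'' (by omega) hex
  rcases Nat.lt_or_ge n 5261 with h4 | h4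
  · exact sweep4 n h3 (by omega) hex
  rcases Nat.lt_or_ge n 5585 with h5 | h5
  · exact sweep5 n h4 (by omega) hex
  rcases Nat.lt_or_ge n 5909 with h6 | h6
  · exact sweep6 n h5 (by omega) hex
  · exact sweep7 n h6 h2 hex

end Cfsg.Agent.Lib.Helper91.SO2
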